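import Groth.Agent.Ega43.UnivOpenFlatGeom
import Groth.Agent.Ega43.UnivOpenAt
import Groth.Agent.Ega43.GeomAt
import Groth.Agent.Ega43.UnivOpenDescent
import Groth.Agent.Sga3C.ArtinBase
import Groth.Agent.Ega1.ReducedSub

/-!
# Universal openness and geometric properties at a point: passage to the reduced base

* `OpenGen f x`: `f` is universally open at the generic points of the components of the fibre through
  `x` (form with points of the source); `openGen_iff` compares with the form using the fibre scheme.
* `OpenGen.of_isPullback`: base change along an immersion (e.g. `Y_red ⟶ Y`).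
* `geomAt_of_isPullback`, `geomAt_iff_of_isPullback_of_surjective`: `GeomAt` and base change.
* `exists_red`: the reduction of a scheme as a surjective closed immersion.
-/

set_option autoImplicit false
universe u
open CategoryTheory Limits AlgebraicGeometry

namespace Groth.Agent.Ega4fib.H128.RedBase

open Groth.Agent.Ega43.GeomAt

/-- `f` is universally open at all maximal points (generic points of components through `x`) of the fibre
over `f x`. -/
def OpenGen {X Y : Scheme.{u}} (f : X ⟶ Y) (x : X) : Prop :=
  ∀ w : X, w ⤳ x → f w = f x → (∀ w' : X, w' ⤳ w → f w' = f x → w' = w) →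
    EGA43.IsUnivOpenAt f w

/-- Comparison with the form using the fibre scheme. -/
theorem openGen_iff {X Y : Scheme.{u}} (f : X ⟶ Y) (x : X) :
    OpenGen f x ↔ ∀ z : ↥(f.fiber (f.base x)), f.asFiber x ∈ closure {z} →
      (∀ z' : ↥(f.fiber (f.base x)), z ∈ closure {z'} → z' = z) →
      EGA43.IsUnivOpenAt f ((f.fiberι (f.base x)).base z) := by
  have hemb : Topology.IsEmbedding (f.fiberι (f x)) := (f.fiberι (f x)).isEmbedding
  have hrange : ∀ w : X, f w = f x ↔ ∃ z, f.fiberι (f x) z = w := by
    intro w
    have h1 : w ∈ Set.range (f.fiberι (f x)) ↔ f w = f x := by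
      rw [Scheme.Hom.range_fiberι]; rfl
    exact h1.symm
  constructor
  · intro h z hz hmax
    refine h _ ?_ ((hrange _).2 ⟨z, rfl⟩) ?_
    · rw [← specializes_iff_mem_closure, ← hemb.isInducing.specializes_iff,
        Scheme.Hom.fiberι_asFiber] at hz
      exact hz
    · intro w' hw' hfw'
      obtain ⟨z', rfl⟩ := (hrange w').1 hfw'
      have h1 : z' = z := hmax z' (by
        rw [← specializes_iff_mem_closure, ← hemb.isInducing.specializes_iff]
        exact hw')
      rw [h1]
  · intro h w hw hfw hmax
    obtain ⟨z, rfl⟩ := (hrange w).1 hfw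
    refine h z ?_ ?_
    · rw [← specializes_iff_mem_closure, ← hemb.isInducing.specializes_iff,
        Scheme.Hom.fiberι_asFiber]
      exact hw
    · intro z' hz'
      rw [← specializes_iff_mem_closure, ← hemb.isInducing.specializes_iff] at hz'
      exact hemb.injective (hmax _ hz' ((hrange _).2 ⟨z', rfl⟩))

/-- Base change of `OpenGen` along a morphism which is (and stays) injective on points with topological
embedding, e.g. an immersion. -/
theorem OpenGen.of_isPullback {X Y X' Y' : Scheme.{u}} {f : X ⟶ Y} {f' : X' ⟶ Y'} {p : X' ⟶ X}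
    {i : Y' ⟶ Y} (sq : IsPullback p f' f i) [IsImmersion i] (x' : X') (h : OpenGen f (p x')) :
    OpenGen f' x' := by
  have hp : IsImmersion p := MorphismProperty.of_isPullback (P := @IsImmersion) sq.flip ‹_›
  have hcomm : ∀ w, f (p w) = i (f' w) := by
    intro w
    rw [← Scheme.Hom.comp_apply, sq.w, Scheme.Hom.comp_apply]
  intro w hw hfw hmax
  refine Groth.Agent.Ega43.UnivOpenAt.isUnivOpenAt_of_isPullback
    (h (p w) (hw.map p.continuous) (by rw [hcomm, hcomm, hfw]) ?_) sq w rfl
  intro v hv hfv
  obtain ⟨v', hv1, hv2⟩ := Scheme.exists_preimage_of_isPullback sq v (f' x') (by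
    rw [hfv, hcomm])
  have hv1' : p v' = v := hv1
  rw [← hv1'] at hv
  rw [← hv1', hmax v' ((p.isEmbedding.isInducing.specializes_iff).1 hv) hv2]

variable {P : ∀ (R : Type u) [CommRing R], Prop}

/-- `GeomAt` is stable under base change. -/
theorem geomAt_of_isPullback {X Y X' Y' : Scheme.{u}} {f : X ⟶ Y} {f' : X' ⟶ Y'} {p : X' ⟶ X}
    {i : Y' ⟶ Y} (sq : IsPullback p f' f i) (x' : X') (h : GeomAt P f (p x')) : GeomAt P f' x' := by
  intro K _ Z a b j hZ z hz
  refine h K Z (a ≫ p) b (j ≫ i) (hZ.paste_horiz sq) z ?_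
  change (a ≫ p) z = p x'
  rw [Scheme.Hom.comp_apply]
  exact congrArg p hz

/-- A morphism from the spectrum of a field factors through every surjective closed immersion. -/
theorem exists_lift_of_isClosedImmersion {Y Y' : Scheme.{u}} (i : Y' ⟶ Y) [IsClosedImmersion i]
    [Surjective i] {T : Scheme.{u}} [IsReduced T] (j : T ⟶ Y) : ∃ j' : T ⟶ Y', j' ≫ i = j := by
  refine Groth.Agent.Ega1.ReducedSub.exists_factor_of_range_subset j i ?_
  rw [i.surjective.range_eq]
  exact Set.subset_univ _

/-- `GeomAt` does not change under base change by a surjective closed immersion. -/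
theorem geomAt_iff_of_isPullback {X Y X' Y' : Scheme.{u}} {f : X ⟶ Y} {f' : X' ⟶ Y'} {p : X' ⟶ X}
    {i : Y' ⟶ Y} (sq : IsPullback p f' f i) [IsClosedImmersion i] [Surjective i] (x' : X') :
    GeomAt P f' x' ↔ GeomAt P f (p x') := by
  refine ⟨?_, geomAt_of_isPullback sq x'⟩
  intro h K _ Z a b j hZ z hz
  have hp : IsClosedImmersion p := MorphismProperty.of_isPullback (P := @IsClosedImmersion) sq.flip ‹_›
  obtain ⟨j', rfl⟩ := exists_lift_of_isClosedImmersion i j
  let a' : Z ⟶ X' := sq.lift a (b ≫ j') (by rw [hZ.w, Category.assoc])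
  have ha' : a' ≫ p = a := sq.lift_fst _ _ _
  have ha2 : a' ≫ f' = b ≫ j' := sq.lift_snd _ _ _
  have hsq : IsPullback a' b f' j' := by
    refine IsPullback.of_right (t := sq) ?_ ha2
    rw [ha']
    exact hZ
  refine h K Z a' b j' hsq z ?_
  apply p.isClosedEmbedding.injective
  rw [← hz]
  change p (a' z) = a z
  rw [← Scheme.Hom.comp_apply, ha']

/-- The reduction of a scheme. -/
theorem exists_red (Y : Scheme.{u}) : ∃ (Y' : Scheme.{u}) (i : Y' ⟶ Y), IsReduced Y' ∧
    IsClosedImmersion i ∧ Surjective i := by
  refine ⟨Y.nilradical.subscheme, Y.nilradical.subschemeι,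
    Groth.Agent.Ega1.ReducedSub.isReduced_subscheme_radical _, inferInstance, ?_⟩
  rw [surjective_iff, ← Set.range_eq_univ, Scheme.IdealSheafData.range_subschemeι,
    Scheme.support_nilradical]
  rfl

end Groth.Agent.Ega4fib.H128.RedBase
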